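import Cfsg.Agent.Lib.BSW.ClsD
import Cfsg.Agent.Lib.Blk.BS
import Cfsg.Agent.Lib.CoreSimpleInd

/-! Groups with a Frobenius system. -/

namespace CfsgLib.BSW

open Subgroup Cfsg CfsgLib.Frob CfsgLib.PCompl
open scoped Pointwise

variable {G : Type*} [Group G]

theorem exists_maximal_solvable [Finite G] {S : Subgroup G} (hS : Group.IsSolvable S) :
    ∃ M : Subgroup G, S ≤ M ∧ Group.IsSolvable M ∧ ∀ M' : Subgroup G, M < M' →
      ¬ Group.IsSolvable M' := by
  obtain ⟨M, hM, hmax⟩ := (Set.toFinite {M : Subgroup G | S ≤ M ∧ Group.IsSolvable M}).exists_maximal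
    ⟨S, le_rfl, hS⟩
  exact ⟨M, hM.1, hM.2, fun M' h h' => h.not_ge (hmax ⟨hM.1.trans h.le, h'⟩ h.le)⟩

/-- If a Sylow `2`-subgroup acts fixed-point-freely on something, its involution is in `Z*`. -/
theorem inZStar_of_hasFPF [Finite G] (S : Sylow 2 G) (hS : HasFPF S) {z : G} (hz : orderOf z = 2) :
    InZStar 2 z := by
  refine Blk.brauer_suzuki G z ⟨hz, fun s hs hc => ?_⟩
  by_cases hs1 : s = 1
  · exact Or.inl hs1
  right
  have hp : IsPGroup 2 (zpowers s ⊔ zpowers z : Subgroup G) :=
    (isPGroup_zpowers_iff.mpr ⟨1, by simpa using orderOf_eq_prime hs hs1⟩).to_sup_of_normal_right'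
      (isPGroup_zpowers_iff.mpr ⟨1, by simpa using hz⟩)
      (zpowers_le.mpr (centralizer_le_normalizer _ (by
        rw [centralizer_zpowers']; exact mem_cent.mpr hc)))
  obtain ⟨S', hS'⟩ := hp.exists_le_sylow
  have h1 := (hS.of_mulEquiv (Sylow.equiv S S')).involution_unique
    (s := ⟨s, hS' (mem_sup_left (mem_zpowers s))⟩) (t := ⟨z, hS' (mem_sup_right (mem_zpowers z))⟩)
    (fun e => hs1 (congrArg Subtype.val e)) (Subtype.ext ((pow_two s).symm.trans hs))
    (fun e => ne_one_of_orderOf_prime Nat.prime_two hz (congrArg Subtype.val e))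
    (Subtype.ext ((pow_two z).symm.trans (Blk.sq_eq_one_of_orderOf hz)))
  exact congrArg Subtype.val h1

theorem normal_sup_of_inZStar [Finite G] {z : G} (h : InZStar 2 z) :
    (pPrimeCore 2 G ⊔ zpowers z).Normal := by
  refine ⟨fun x hx g => ?_⟩
  obtain ⟨a, ha, b, hb, rfl⟩ := mem_sup_of_normal_left.mp hx
  obtain ⟨i, rfl⟩ := mem_zpowers_iff.mp hb
  have h1 : g * z * g⁻¹ ∈ pPrimeCore 2 G ⊔ zpowers z := by
    have := mul_mem (mem_sup_left (h g)) (mem_sup_right (mem_zpowers z) :
      z ∈ pPrimeCore 2 G ⊔ zpowers z)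
    simpa using this
  have := mul_mem (mem_sup_left ((inferInstance : (pPrimeCore 2 G).Normal).conj_mem a ha g))
    (zpow_mem h1 i)
  convert this using 1
  rw [conj_zpow]; group

theorem isSolvable_pPrimeCore_two [Finite G] : Group.IsSolvable (pPrimeCore 2 G) :=
  FT.feit_thompson (Nat.coprime_two_right.mp (pPrimeCore_coprime 2))

theorem frobenius_system [Finite G] (F : Subgroup G → Subgroup G)
    (h : ∀ M : Subgroup G, (Group.IsSolvable M ∧ ∀ M' : Subgroup G, M < M' →
        ¬ Group.IsSolvable M') →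
      F M ≤ M ∧ M ≤ Subgroup.normalizer (F M : Set G) ∧
      (∀ a ∈ M, a ∉ F M → ∀ x ∈ F M, x * a = a * x → x = 1) ∧
      (∀ g : G, g ∉ M → F M ⊓ (MulAut.conj g • F M) = ⊥) ∧
      (F M ≠ ⊥ ∨ IsMulCommutative M)) :
    Group.IsSolvable G ∨ ∃ (K : Subgroup G) (t : G), ZSetup K t := by
  by_cases hs : Group.IsSolvable G
  · exact Or.inl hs
  right
  obtain ⟨S⟩ : Nonempty (Sylow 2 G) := inferInstance
  obtain ⟨M, hSM, hM, hmax⟩ := exists_maximal_solvable (isSolvable_of_isPGroup S.isPGroup')
  obtain ⟨h1, h2, h3, h4, h5⟩ := h M ⟨hM, hmax⟩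
  have hMt : M ≠ ⊤ := fun e => hs (isSolvable_top_iff.mp (e ▸ hM))
  have hle : ∀ R : Subgroup G, Group.IsSolvable R → M ≤ normalizer (R : Set G) → R ≤ M := by
    intro R hR hn
    by_contra hc
    exact hmax _ (lt_of_le_of_ne le_sup_left fun e => hc (e ▸ le_sup_right)) (isSolvable_sup hn hM hR)
  by_cases hF : F M = ⊥
  · exfalso
    have hc := h5.resolve_left (not_not.mpr hF)
    have hN : Group.IsSolvable (normalizer ((S : Subgroup G) : Set G)) := by
      haveI : ((S.subtype le_normalizer : Sylow 2 (normalizer ((S : Subgroup G) : Set G))) :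
        Subgroup (normalizer ((S : Subgroup G) : Set G))).Normal := normal_in_normalizer
      exact isSolvable_of_normal_sylow_two (S.subtype le_normalizer)
    have hMC : M ≤ centralizer ((S : Subgroup G) : Set G) := fun m hm =>
      mem_centralizer_iff.mpr fun s hs => isMulCommutative_iff'.mp hc s (hSM hs) m hm
    have hMN := hMC.trans (centralizer_le_normalizer _)
    refine hs (isSolvable_of_hnpc_two (hnpc_of_normalizer_le_centralizer S
      ((hle _ hN (hMN.trans le_normalizer)).trans hMC)))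
  have hmem : ∀ g x : G, x ∈ F M → x ≠ 1 → g * x * g⁻¹ ∈ F M → g ∈ M := by
    intro g x hx hx1 hc
    by_contra hg
    have : g * x * g⁻¹ ∈ F M ⊓ MulAut.conj g • F M :=
      ⟨hc, mem_conj_smul_iff.mpr (by simpa [mul_assoc] using hx)⟩
    rw [h4 g hg, mem_bot] at this
    exact conj_ne_one hx1 this
  have hN : normalizer (F M : Set G) = M := le_antisymm (fun g hg => by
    obtain ⟨x, hx, hx1⟩ := (bot_or_exists_ne_one _).resolve_left hF
    exact hmem g x hx hx1 (conj_mem_of_mem_normalizer hg hx)) h2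
  have hK : CentTI (F M) := by
    refine ⟨fun x hx hx1 g hg => ?_, fun g hg x hx hc => ?_⟩
    · by_contra hgF
      exact hx1 (h3 g (hmem g x hx hx1 (by rw [hg]; simpa using hx)) hgF x hx hg.symm)
    · by_contra hx1
      exact hg (h2 (hmem g x hx hx1 hc))
  have hnn : ¬ (F M).Normal := fun hn => hMt (by rw [← hN, normalizer_eq_top])
  have hFM : ¬ normalizer (F M : Set G) ≤ F M := fun hle' =>
    hs (isSolvable_of_complement_solvable (hK.isFrobeniusComplement hle' hF
      fun e => hnn (e ▸ inferInstance)) (isSolvable_of_le hM h1))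
  have hFK : IsFrobeniusKernel ((F M).subgroupOf M) := by
    refine ⟨(normal_subgroupOf_iff_le_normalizer h1).mpr h2, fun e => hF ?_,
      fun e => hFM (hN.le.trans (subgroupOf_eq_top.mp e)), fun k hk hk1 g hc =>
        hK.cent k hk (fun e => hk1 (Subtype.ext e)) g (congrArg Subtype.val hc)⟩
    rw [subgroupOf_eq_bot] at e
    exact e.eq_bot_of_le h1
  by_cases he : 2 ∣ Nat.card (F M)
  · have hnil : Group.IsNilpotent (F M) := by
      haveI := H5.isNilpotent_of_isFrobeniusKernel hFK
      exact isNilpotent_of_injective (subgroupOfEquivOfLe h1).symm.toMonoidHom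
        (subgroupOfEquivOfLe h1).symm.injective
    obtain ⟨T⟩ : Nonempty (Sylow 2 (F M)) := inferInstance
    obtain ⟨z, hzT, hz, hT⟩ := exists_central_of_sylow T he
    have hzc : z ∈ center (F M) := by
      rw [mem_center_iff]
      intro g
      refine mem_cent.mp (mem_of_forall_primePow_mem fun w _ r k hr hk => ?_)
      by_cases hr2 : r = 2
      · subst hr2
        obtain ⟨T', hT'⟩ := exists_sylow_mem_of_orderOf hk
        haveI := Sylow.unique_of_normal T inferInstance
        rw [Subsingleton.elim T' T] at hT'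
        exact hT hT'
      · exact mem_cent.mpr (commute_of_coprime_of_isNilpotent (by
          rw [hk, hz]
          exact Nat.Coprime.pow_left _ ((Nat.coprime_primes hr Nat.prime_two).mpr hr2))).eq
    obtain ⟨t, ht⟩ := hK.exists_zSetup (z := (z : G)) (by simpa using hz) z.2
      (fun k hk => congrArg Subtype.val (mem_center_iff.mp hzc ⟨k, hk⟩)) hnn hFM
    exact ⟨_, t, ht⟩
  · exfalso
    obtain ⟨z, hzS, hz, -⟩ := exists_central_of_sylow S (even_card_of_not_isSolvable hs).two_dvd
    have hnot : ∀ s ∈ (S : Subgroup G), s ∈ F M → s = 1 := by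
      intro s hs hsF
      obtain ⟨k, hk⟩ := orderOf_eq_pow_of_mem_isPGroup S.isPGroup' hs
      rcases Nat.eq_zero_or_pos k with rfl | hk0
      · exact orderOf_eq_one_iff.mp (by simpa using hk)
      · exact absurd ((hk ▸ dvd_pow_self 2 hk0.ne').trans (Subgroup.orderOf_dvd_natCard _ hsF)) he
    have hS : HasFPF S := hasFPF_of_fpf (hSM.trans h2) hF fun s hs hs1 k hk hc =>
      hK.fpf (fun e => hs1 (hnot s hs e)) k hk hc
    haveI := normal_sup_of_inZStar (inZStar_of_hasFPF S hS hz)
    have hR : pPrimeCore 2 G ⊔ zpowers z ≤ M := hle _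
      (sup_comm (zpowers z) (pPrimeCore 2 G) ▸ isSolvable_sup_of_normal (isSolvable_zpowers z)
        isSolvable_pPrimeCore_two) (by rw [normalizer_eq_top]; exact le_top)
    rcases hFK.le_or_ge ((pPrimeCore 2 G ⊔ zpowers z).subgroupOf M) with h6 | h6
    · exact ne_one_of_orderOf_prime Nat.prime_two hz (hnot z hzS
        (h6 (x := ⟨z, hSM hzS⟩) (mem_sup_right (mem_zpowers z))))
    · apply hnn
      refine ⟨fun x hx g => ?_⟩
      have h7 : g * x * g⁻¹ ∈ M := hR (Normal.conj_mem inferInstance x (h6 (x := ⟨x, h1 hx⟩) hx) g)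
      by_contra hc
      have h8 := hK.coprime_orderOf (h2 h7) hc
      rw [H5.orderOf_conj'] at h8
      have := orderOf_eq_one_iff.mp (h8.eq_one_of_dvd (Subgroup.orderOf_dvd_natCard _ hx))
      exact hc (by simp [this])

end CfsgLib.BSW
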